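import Mathlib

/-!
# The group `D₈ ≀ C₂` (a Sylow 2-subgroup of `S₈`) as an explicit multiplication rule

Elements are coded by `Fin 128`: bit `k` of the code is the exponent of the `k`-th polycyclic generator
`(0 1), (2 3), (0 2)(1 3), (4 5), (6 7), (4 6)(5 7), (0 4)(1 5)(2 6)(3 7)`.
-/

set_option autoImplicit false

namespace Cfsg.Agent.Lib.WrD8

/-- Packed multiplication table of `D₈`. -/
def D8T : ℕ := 213944448752141571150712690086323374402658168536932468360
/-- Packed inversion table. -/
def INVT : ℕ := 527776555493825018258328332109494574602475567341267381874974485410511283656105774119542869386085981940054901115409008920259094923434106330687681776252202894672953089442412991591961127597526460901682775575250533343645233710151560572725834802412604103935802819399731150976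
/-- Packed action on eight points. -/
def PTT : ℕ := 118563029786906454507360992889834152741606538335202846215844944131315656150118933082896381781420272689839405318811110657133772705392473869349454165593151335120677811212585166029317938471887517159522211917802379204954452696830481087876754877868799169585411844508749557375284009423021418881645552847079851236950217542489704725804067432518090534157504683294098216354547346655474404917499111218950388535450145446849894825210655570761084199974475616387568318799524274758076942808089203398766771229477905210465159995373660601653341424153406695672107820989832497708985207799052120512510105243539150351938237422354831147776392731756435282451661108905002367298136654203457250546809361259684804554479804925703999120280600957298907453191335043608376120778186754114439486631293782659155530215855622173998683778016192559097118469665917574611919582431893341717021361946879852968719044156417311548750304819575139593355210207849873441212040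

/-- Multiplication in `D₈`. -/
def d8m (u v : ℕ) : ℕ := (D8T >>> (3 * (8 * u + v))) % 8

/-- Multiplication of codes as natural numbers. -/
def mtN (i j : ℕ) : ℕ :=
  if i < 64 then d8m (i % 8) (j % 8) + 8 * d8m ((i >>> 3) % 8) ((j >>> 3) % 8) + 64 * (j >>> 6)
  else d8m (i % 8) ((j >>> 3) % 8) + 8 * d8m ((i >>> 3) % 8) (j % 8) + 64 * (1 - (j >>> 6))

/-- Multiplication of codes. -/
def mt (i j : Fin 128) : Fin 128 := ⟨mtN i.val j.val % 128, Nat.mod_lt _ (by norm_num)⟩
/-- Inversion of codes. -/
def iv (i : Fin 128) : Fin 128 := ⟨(INVT >>> (7 * i.val)) % 128, Nat.mod_lt _ (by norm_num)⟩
/-- Action of a code on eight points. -/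
def actT (i : Fin 128) (p : Fin 8) : Fin 8 := ⟨(PTT >>> (3 * (8 * i.val + p.val))) % 8, Nat.mod_lt _ (by norm_num)⟩
/-- Conjugation of codes. -/
def cj (p i : Fin 128) : Fin 128 := mt (mt p i) (iv p)
/-- Membership in a set of codes given by a bit mask. -/
abbrev inM (M : ℕ) (i : Fin 128) : Prop := (M >>> i.val) % 2 = 1

/-- Mask of the base group `D₈ × D₈`. -/
def MB : ℕ := 18446744073709551615
/-- Mask of the Frattini subgroup of the base group. -/
def MF : ℕ := 150994953
/-- Mask of the centre. -/
def MZ : ℕ := 134217729
/-- Mask of the first normal `E₁₆`. -/
def MV1 : ℕ := 252645135
/-- Mask of the second normal `E₁₆`. -/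
def MV2 : ℕ := 11024812547499884697
/-- Mask of a set of eight involutions on which the relevant automorphisms act faithfully. -/
def MX : ℕ := 170308636304288305395965742598701711360

set_option maxRecDepth 100000 in
theorem act_one : ∀ p : Fin 8, actT 0 p = p := by decide +kernel
set_option maxRecDepth 100000 in
theorem act_mul : ∀ (i j : Fin 128) (p : Fin 8), actT (mt i j) p = actT i (actT j p) := by decide +kernel
set_option maxRecDepth 100000 in
theorem act_faithful : ∀ i j : Fin 128, (∀ p : Fin 8, actT i p = actT j p) → i = j := by decide +kernel
set_option maxRecDepth 100000 in
theorem iv_mul : ∀ i : Fin 128, mt (iv i) i = 0 := by decide +kernel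
set_option maxRecDepth 100000 in
theorem zero_mt : ∀ i : Fin 128, mt 0 i = i := by decide +kernel

end Cfsg.Agent.Lib.WrD8
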