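import Mathlib
import Cfsg.Agent.Lib.WrD8.Data
import Cfsg.Agent.Lib.WrD8.Class

/-!
# The table group `D₈ ≀ C₂` and the classification of its automorphisms
-/

set_option autoImplicit false

namespace Cfsg.Agent.Lib.WrD8

/-- The table group. -/
def T₀ : Type := Fin 128

instance : DecidableEq T₀ := inferInstanceAs (DecidableEq (Fin 128))
instance : Fintype T₀ := inferInstanceAs (Fintype (Fin 128))

theorem mt_assoc (a b c : Fin 128) : mt (mt a b) c = mt a (mt b c) := by
  apply act_faithful
  intro p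
  rw [act_mul, act_mul, act_mul, act_mul]

instance : Group T₀ :=
  letI : Mul T₀ := ⟨mt⟩
  letI : One T₀ := ⟨(0 : Fin 128)⟩
  letI : Inv T₀ := ⟨iv⟩
  Group.ofLeftAxioms mt_assoc zero_mt iv_mul

/-- Codes as elements of the table group. -/
abbrev tt (i : Fin 128) : T₀ := i

theorem mul_def (a b : Fin 128) : tt (mt a b) = tt a * tt b := rfl
theorem one_def : tt 0 = 1 := rfl
theorem cj_def (p i : Fin 128) : tt (cj p i) = tt p * tt i * (tt p)⁻¹ := rfl

theorem card_T₀ : Nat.card T₀ = 128 := by
  rw [Nat.card_eq_fintype_card]; exact Fintype.card_fin 128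

instance : MulAction T₀ (Fin 8) where
  smul := actT
  one_smul := act_one
  mul_smul := act_mul

/-- The permutation representation of the table group. -/
def permHom : T₀ →* Equiv.Perm (Fin 8) := MulAction.toPermHom T₀ (Fin 8)

theorem permHom_injective : Function.Injective permHom := by
  intro a b h
  apply act_faithful
  intro p
  exact congrArg (fun s : Equiv.Perm (Fin 8) => s p) h

theorem factor_eq : (Nat.card (Equiv.Perm (Fin 8))).factorization 2 = 7 := by
  have h : Nat.card (Equiv.Perm (Fin 8)) = 2 ^ 7 * 315 := by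
    rw [Nat.card_eq_fintype_card, Fintype.card_perm, Fintype.card_fin]; rfl
  rw [h, Nat.factorization_mul (by positivity) (by norm_num), Nat.Prime.factorization_pow Nat.prime_two]
  have : ¬ 2 ∣ 315 := by norm_num
  simp [Nat.factorization_eq_zero_of_not_dvd this]

instance : Fact (Nat.Prime 2) := ⟨Nat.prime_two⟩

/-- Any Sylow 2-subgroup of `S₈` is isomorphic to the table group. -/
theorem sylow_equiv (T : Sylow 2 (Equiv.Perm (Fin 8))) : Nonempty ((T : Subgroup (Equiv.Perm (Fin 8))) ≃* T₀) := by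
  have hc : Nat.card permHom.range = 2 ^ (Nat.card (Equiv.Perm (Fin 8))).factorization 2 := by
    rw [factor_eq, ← Nat.card_congr (MonoidHom.ofInjective permHom_injective).toEquiv, card_T₀]
    norm_num
  have e := T.equiv (Sylow.ofCard permHom.range hc)
  rw [Sylow.coe_ofCard] at e
  exact ⟨e.trans (MonoidHom.ofInjective permHom_injective).symm⟩

/-- The action of an automorphism on codes. -/
def af (α : T₀ ≃* T₀) (i : Fin 128) : Fin 128 := α (tt i)

theorem af_mt (α : T₀ ≃* T₀) (a b : Fin 128) : af α (mt a b) = mt (af α a) (af α b) :=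
  map_mul α (tt a) (tt b)

theorem af_zero (α : T₀ ≃* T₀) : af α 0 = 0 := map_one α

theorem af_cj (α : T₀ ≃* T₀) (p i : Fin 128) : af α (cj p i) = cj (af α p) (af α i) := by
  show α (tt p * tt i * (tt p)⁻¹) = α (tt p) * α (tt i) * (α (tt p))⁻¹
  rw [map_mul, map_mul, map_inv]

theorem af_injective (α : T₀ ≃* T₀) : Function.Injective (af α) := fun _ _ h => α.injective h

theorem af_symm (α : T₀ ≃* T₀) (i : Fin 128) : af α (af α.symm i) = i := α.apply_symm_apply (tt i)

theorem pw_map (α : T₀ ≃* T₀) (g : Fin 128) (k : ℕ) (i : Fin 128) :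
    af α (pw g k i) = pw (af α g) k i := by
  unfold pw
  split_ifs
  · rfl
  · exact af_zero α

theorem ext_map (α : T₀ ≃* T₀) (x y z i : Fin 128) :
    af α (ext x y z i) = ext (af α x) (af α y) (af α z) i := by
  simp only [ext, af_mt, pw_map]

/-- Inner automorphism. -/
def inn (p : Fin 128) : T₀ ≃* T₀ := MulAut.conj (tt p)

theorem af_inn (p i : Fin 128) : af (inn p) i = cj p i := rfl

theorem cj_cj (p q i : Fin 128) : cj p (cj q i) = cj (mt p q) i := by
  show tt p * (tt q * tt i * (tt q)⁻¹) * (tt p)⁻¹ = (tt p * tt q) * tt i * (tt p * tt q)⁻¹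
  group

theorem cj_inv (p i : Fin 128) : cj (iv p) (cj p i) = i := by
  show (tt p)⁻¹ * (tt p * tt i * (tt p)⁻¹) * ((tt p)⁻¹)⁻¹ = tt i
  group

theorem cj_inv' (p i : Fin 128) : cj p (cj (iv p) i) = i := by
  show tt p * ((tt p)⁻¹ * tt i * ((tt p)⁻¹)⁻¹) * (tt p)⁻¹ = tt i
  group

/-- The image of a non-square generator in the sixteen point set. -/
theorem s16_of (α : T₀ ≃* T₀) (a : Fin 128) (ha0 : a ≠ 0)
    (h : mt a a = 0 ∧ (∀ p : Fin 128, mt a (cj p a) = mt (cj p a) a) ∧ (∀ c : Fin 128, mt c c ≠ a)) :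
    inM MS (af α a) := by
  obtain ⟨h1, h2, h3⟩ := h
  refine s16 _ ?_ ?_ ?_ ?_
  · intro h0
    rw [← af_zero α] at h0
    exact ha0 (af_injective α h0)
  · rw [← af_mt, h1, af_zero]
  · intro p
    have e : p = af α (af α.symm p) := (af_symm α p).symm
    rw [e, ← af_cj, ← af_mt, ← af_mt, h2]
  · intro c hc
    apply h3 (af α.symm c)
    apply af_injective α
    rw [af_mt, af_symm, hc]

theorem case_swap (α : T₀ ≃* T₀) (β : Fin 128 → Fin 128) (p : Fin 128) (hs : swapF β)
    (hm : ∃ i : Fin 128, inM MX i ∧ cj p (β i) ≠ i) (h : ∀ i, af α i = cj p (β i)) : swapF (af α) := by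
  obtain ⟨h1, h2, ⟨i₁, hi₁, hi₁'⟩, ⟨i₂, hi₂, hi₂'⟩, h5, -⟩ := hs
  refine ⟨?_, ?_, ⟨i₁, hi₁, ?_⟩, ⟨i₂, hi₂, ?_⟩, ?_, ?_⟩
  · intro i hi
    rw [h]
    exact v2_norm _ _ (h1 i hi)
  · intro i hi
    rw [h]
    exact v1_norm _ _ (h2 i hi)
  · rw [h]
    exact fun hh => hi₁' (v1_norm' _ _ hh)
  · rw [h]
    exact fun hh => hi₂' (v2_norm' _ _ hh)
  · intro i hi
    rw [h]
    exact x_inv _ _ (h5 i hi)
  · obtain ⟨i, hi, hi2⟩ := hm
    exact ⟨i, hi, by rw [h]; exact hi2⟩

theorem case_bad (α : T₀ ≃* T₀) (β : Fin 128 → Fin 128) (p : Fin 128) (hb : trivB β ∧ sqF β)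
    (h : ∀ i, af α i = cj p (β i)) : badF (af α) := by
  refine ⟨af α.symm (iv p), ?_⟩
  have e : (fun i => af α (cj (af α.symm (iv p)) i)) = β := by
    funext i
    rw [af_cj, af_symm, h, cj_inv]
  rw [e]
  exact hb

theorem case_ord (α : T₀ ≃* T₀) (β β₅ : Fin 128 → Fin 128) (p u : Fin 128)
    (hb : trivB β₅ ∧ sqF β₅) (hn : ¬ isInn β₅) (hu : ∀ i, β (β i) = cj u (β₅ i))
    (h : ∀ i, af α i = cj p (β i)) :
    ¬ isInn (fun i => af α (af α i)) ∧ badF (fun i => af α (af α i)) := by
  set w : Fin 128 := mt (mt (af α p) p) u with hw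
  have hγ : ∀ i, af α (af α i) = cj w (β₅ i) := by
    intro i
    rw [h i, af_cj, h (β i), hu, cj_cj, cj_cj]
  constructor
  · rintro ⟨v, hv⟩
    apply hn
    refine ⟨mt (iv w) v, fun i => ?_⟩
    have := hv i
    simp only [hγ] at this
    rw [← cj_cj, ← this, cj_inv]
  · have hbad := case_bad (α * α) β₅ w hb (fun i => hγ i)
    exact hbad

/-- Every automorphism of the table group has one of the four types. -/
theorem classify (α : T₀ ≃* T₀) : goodF (af α) := by
  obtain ⟨h11, h12, h13⟩ := inv1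
  obtain ⟨h41, h42, h43⟩ := inv4
  set x : Fin 128 := af α 1 with hx
  set y : Fin 128 := af α 4 with hy
  set z : Fin 128 := af α 64 with hz
  have hf : ∀ i, af α i = ext x y z i := by
    intro i
    have := ext_map α 1 4 64 i
    rw [ext_gens] at this
    exact this
  have hxS : inM MS x := s16_of α 1 (by decide) ⟨h11, h12, h13⟩
  have hyS : inM MS y := s16_of α 4 (by decide) ⟨h41, h42, h43⟩
  have hab : mt (mt x y) (mt x y) = mt (mt y x) (mt y x) := by
    have := congrArg (af α) rel_ab
    simpa only [af_mt] using this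
  have hzz : mt z z = 0 := by
    have := congrArg (af α) inv64
    simpa only [af_mt, af_zero] using this
  have hr1 : mt x (mt (mt z x) z) = mt (mt (mt z x) z) x := by
    have := congrArg (af α) rel1
    simpa only [af_mt] using this
  have hr2 : mt x (mt (mt z y) z) = mt (mt (mt z y) z) x := by
    have := congrArg (af α) rel2
    simpa only [af_mt] using this
  have hr3 : mt y (mt (mt z x) z) = mt (mt (mt z x) z) y := by
    have := congrArg (af α) rel3
    simpa only [af_mt] using this
  have hr4 : mt y (mt (mt z y) z) = mt (mt (mt z y) z) y := by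
    have := congrArg (af α) rel4
    simpa only [af_mt] using this
  have h27 : ext x y z 27 ≠ 0 := by
    rw [← hf]
    intro h0
    rw [← af_zero α] at h0
    exact inv27 (af_injective α h0)
  obtain ⟨hc1, hc2, hc3⟩ := coverage x hxS y hyS hab z hzz hr1 hr2 hr3 hr4 h27
  set p := certP x y z with hp
  set k := certK x y z with hk
  have hβ : ∀ i, af α i = cj p (ext (repA k) (repB k) (repT k) i) := by
    intro i
    rw [hf, hc1, hc2, hc3, ← af_inn, ← af_inn, ← af_inn, ← ext_map, af_inn]
  clear_value k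
  fin_cases k
  · -- inner
    left
    refine ⟨p, fun i => ?_⟩
    rw [hβ]
    exact congrArg (cj p) (ext_gens i)
  · right; left
    exact case_swap α _ p swap1 (swap1m p) hβ
  · right; left
    exact case_swap α _ p swap2 (swap2m p) hβ
  · right; right; left
    exact case_bad α _ p bad1 hβ
  · right; right; left
    exact case_bad α _ p bad2 hβ
  · right; right; left
    exact case_bad α _ p bad3 hβ
  · right; right; right
    exact case_ord α _ _ p _ bad3 not_inn ord1 hβ
  · right; right; right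
    exact case_ord α _ _ p _ bad3 not_inn ord2 hβ

end Cfsg.Agent.Lib.WrD8
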