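import Mathlib
import Cfsg.Prelude.Def_CaseTheorems

/-!
# A section of rank five

If `B` has order 64, `F ≤ B` has order 4, `B / F` is elementary abelian, and `g ∉ B` acts trivially on `B / F`
with `g² ∈ F`, then `⟨B, g⟩ / F` is elementary abelian of order 32.
-/

set_option autoImplicit false

namespace Cfsg.Agent.Lib.WrD8

theorem rank5 {S : Type*} [Group S] [Finite S] (hr : Cfsg.SectionalPRankLE 2 4 S) (B F : Subgroup S) (g : S)
    (hcB : Nat.card B = 64) (hcF : Nat.card F = 4) (hFB : F ≤ B) (hsq : ∀ b ∈ B, b * b ∈ F)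
    (hnorm : ∀ b ∈ B, ∀ f ∈ F, b * f * b⁻¹ ∈ F) (hg : ∀ b ∈ B, ∃ u ∈ F, g * b * g⁻¹ = b * u)
    (hg2 : g * g ∈ F) (hgB : g ∉ B) : False := by
  classical
  have hgb : ∀ b ∈ B, g * b * g⁻¹ ∈ B := by
    intro b hb
    obtain ⟨u, hu, e⟩ := hg b hb
    rw [e]
    exact B.mul_mem hb (hFB hu)
  have hg2B : g * g ∈ B := hFB hg2
  let H : Subgroup S :=
    { carrier := {x | x ∈ B ∨ x * g⁻¹ ∈ B}
      one_mem' := Or.inl B.one_mem
      mul_mem' := by
        rintro x y (hx | hx) (hy | hy)
        · exact Or.inl (B.mul_mem hx hy)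
        · right
          rw [mul_assoc]
          exact B.mul_mem hx hy
        · right
          have : x * y * g⁻¹ = (x * g⁻¹) * (g * y * g⁻¹) := by group
          rw [this]
          exact B.mul_mem hx (hgb y hy)
        · left
          have : x * y = (x * g⁻¹) * (g * (y * g⁻¹) * g⁻¹) * (g * g) := by group
          rw [this]
          exact B.mul_mem (B.mul_mem hx (hgb _ hy)) hg2B
      inv_mem' := by
        rintro x (hx | hx)
        · exact Or.inl (B.inv_mem hx)
        · right
          have : x⁻¹ * g⁻¹ = (g * g)⁻¹ * (g * (x * g⁻¹)⁻¹ * g⁻¹) := by group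
          rw [this]
          exact B.mul_mem (B.inv_mem hg2B) (hgb _ (B.inv_mem hx)) }
  have hFH : F ≤ H := fun x hx => Or.inl (hFB hx)
  have hnH : ∀ x ∈ H, ∀ f ∈ F, x * f * x⁻¹ ∈ F := by
    rintro x (hx | hx) f hf
    · exact hnorm x hx f hf
    · obtain ⟨u, hu, e⟩ := hg f (hFB hf)
      have : x * f * x⁻¹ = (x * g⁻¹) * (g * f * g⁻¹) * (x * g⁻¹)⁻¹ := by group
      rw [this, e]
      exact hnorm _ hx _ (F.mul_mem hf hu)
  have hsqH : ∀ x ∈ H, x * x ∈ F := by
    rintro x (hx | hx)
    · exact hsq x hx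
    · obtain ⟨u, hu, e⟩ := hg (x * g⁻¹) hx
      have : x * x = (x * g⁻¹) * (g * (x * g⁻¹) * g⁻¹) * (g * g) := by group
      rw [this, e]
      have h2 : x * g⁻¹ * (x * g⁻¹ * u) * (g * g) = (x * g⁻¹ * (x * g⁻¹)) * u * (g * g) := by group
      rw [h2]
      exact F.mul_mem (F.mul_mem (hsq _ hx) hu) hg2
  let K : Subgroup H := F.subgroupOf H
  haveI hKn : K.Normal := by
    constructor
    intro f hf x
    rw [Subgroup.mem_subgroupOf] at hf ⊢
    exact hnH x x.2 f hf
  have hex : ∀ a : H ⧸ K, a ^ 2 = 1 := by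
    intro a
    obtain ⟨x, rfl⟩ := QuotientGroup.mk_surjective a
    rw [← QuotientGroup.mk_pow, QuotientGroup.eq_one_iff, Subgroup.mem_subgroupOf, pow_two]
    exact hsqH x x.2
  have hcomm : ∀ a b : H ⧸ K, a * b = b * a := by
    intro a b
    have h1 : a * a = 1 := by rw [← pow_two]; exact hex a
    have h2 : b * b = 1 := by rw [← pow_two]; exact hex b
    have h3 : (a * b) * (a * b) = 1 := by rw [← pow_two]; exact hex _
    calc a * b = a * b * ((a * b) * (b * a)) := by
              have : (a * b) * (b * a) = 1 := by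
                rw [mul_assoc, ← mul_assoc b b a, h2, one_mul, h1]
              rw [this, mul_one]
      _ = ((a * b) * (a * b)) * (b * a) := by group
      _ = b * a := by rw [h3, one_mul]
  have hle := hr H K (⊤ : Subgroup (H ⧸ K)) ⟨⟨fun a b => Subtype.ext (hcomm a.1 b.1)⟩⟩ (fun a _ => hex a)
  rw [Subgroup.card_top] at hle
  have hcK : Nat.card K = 4 := by
    rw [← hcF]
    exact Nat.card_congr (Subgroup.subgroupOfEquivOfLe hFH).toEquiv
  have hcH := Subgroup.card_eq_card_quotient_mul_card_subgroup K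
  rw [hcK] at hcH
  have hlow : 128 ≤ Nat.card H := by
    let f : B × Bool → H := fun p => if p.2 then ⟨p.1.1 * g, Or.inr (by simpa using p.1.2)⟩ else ⟨p.1.1, Or.inl p.1.2⟩
    have hf : Function.Injective f := by
      rintro ⟨a, _ | _⟩ ⟨b, _ | _⟩ h
      · simp only [f, Bool.false_eq_true, if_false, Subtype.mk.injEq] at h
        rw [Subtype.ext h]
      · exfalso
        simp only [f, Bool.false_eq_true, if_false, if_true, Subtype.mk.injEq] at h
        apply hgB
        have : g = (b.1)⁻¹ * a.1 := by rw [h]; group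
        rw [this]
        exact B.mul_mem (B.inv_mem b.2) a.2
      · exfalso
        simp only [f, Bool.false_eq_true, if_false, if_true, Subtype.mk.injEq] at h
        apply hgB
        have : g = (a.1)⁻¹ * b.1 := by rw [← h]; group
        rw [this]
        exact B.mul_mem (B.inv_mem a.2) b.2
      · simp only [f, if_true, Subtype.mk.injEq, mul_left_inj] at h
        rw [Subtype.ext h]
    have := Nat.card_le_card_of_injective f hf
    rw [Nat.card_prod, hcB] at this
    simpa using this
  omega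

/-- In a 2-group, an element outside a subgroup has a power outside it whose square is inside. -/
theorem exists_pow_sq_mem {G : Type*} [Group G] (hG : IsPGroup 2 G) (H : Subgroup G) (x : G) (hx : x ∉ H) :
    ∃ k : ℕ, x ^ (2 ^ k) ∉ H ∧ x ^ (2 ^ k) * x ^ (2 ^ k) ∈ H := by
  classical
  obtain ⟨m, hm⟩ := hG x
  have hex : ∃ k : ℕ, x ^ (2 ^ k) ∈ H := ⟨m, by rw [hm]; exact H.one_mem⟩
  have h0 : Nat.find hex ≠ 0 := by
    intro h
    have := Nat.find_spec hex
    rw [h] at this
    exact hx (by simpa using this)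
  obtain ⟨j, hj⟩ := Nat.exists_eq_succ_of_ne_zero h0
  refine ⟨j, Nat.find_min hex (by omega), ?_⟩
  have := Nat.find_spec hex
  rw [hj] at this
  rw [← pow_add, ← two_mul, ← pow_succ']
  exact this

end Cfsg.Agent.Lib.WrD8
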