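import Mathlib
import Cfsg.Prelude.Def_CaseTheorems
import Cfsg.Prelude.Def_Transfer
import Cfsg.Agent.Lib.WrD8.Grp
import Cfsg.Agent.Lib.WrD8.Rank5

/-!
# Overgroups of `D₈ ≀ C₂` in 2-groups of sectional rank at most 4
-/

set_option autoImplicit false

namespace Cfsg.Agent.Lib.WrD8

/-- A subgroup of the table group given by a mask. -/
def subM (M : ℕ) (h0 : inM M 0) (hm : ∀ i j : Fin 128, inM M i → inM M j → inM M (mt i j))
    (hi : ∀ i : Fin 128, inM M i → inM M (iv i)) : Subgroup T₀ where
  carrier := {i : T₀ | inM M i}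
  one_mem' := h0
  mul_mem' := fun {a b} ha hb => hm a b ha hb
  inv_mem' := fun {a} ha => hi a ha

theorem mem_subM {M : ℕ} {h0 : inM M 0} {hm : ∀ i j : Fin 128, inM M i → inM M j → inM M (mt i j)}
    {hi : ∀ i : Fin 128, inM M i → inM M (iv i)} {i : T₀} : i ∈ subM M h0 hm hi ↔ inM M i := Iff.rfl

theorem card_subM {M : ℕ} (h0 : inM M 0) (hm : ∀ i j : Fin 128, inM M i → inM M j → inM M (mt i j))
    (hi : ∀ i : Fin 128, inM M i → inM M (iv i)) :
    Nat.card (subM M h0 hm hi) = (Finset.univ.filter (fun i : Fin 128 => inM M i)).card := by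
  have e : (subM M h0 hm hi) ≃ {i : Fin 128 // inM M i} := Equiv.refl _
  rw [Nat.card_congr e, Nat.card_eq_fintype_card, Fintype.card_subtype]

/-- Base group. -/
def B₀ : Subgroup T₀ := subM MB (by decide +kernel) (by decide +kernel) (by decide +kernel)
/-- Frattini subgroup of the base group. -/
def F₀ : Subgroup T₀ := subM MF (by decide +kernel) (by decide +kernel) (by decide +kernel)
/-- Centre. -/
def Z₀ : Subgroup T₀ := subM MZ (by decide +kernel) (by decide +kernel) (by decide +kernel)
/-- First `E₁₆`. -/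
def V1₀ : Subgroup T₀ := subM MV1 (by decide +kernel) (by decide +kernel) (by decide +kernel)
/-- Second `E₁₆`. -/
def V2₀ : Subgroup T₀ := subM MV2 (by decide +kernel) (by decide +kernel) (by decide +kernel)

theorem card_B₀ : Nat.card B₀ = 64 := by
  rw [B₀, card_subM]; decide +kernel
theorem card_F₀ : Nat.card F₀ = 4 := by
  rw [F₀, card_subM]; decide +kernel
theorem card_Z₀ : Nat.card Z₀ = 2 := by
  rw [Z₀, card_subM]; decide +kernel
theorem card_V1₀ : Nat.card V1₀ = 16 := by
  rw [V1₀, card_subM]; decide +kernel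
theorem card_V2₀ : Nat.card V2₀ = 16 := by
  rw [V2₀, card_subM]; decide +kernel
theorem card_X : Fintype.card {i : Fin 128 // inM MX i} = 8 := by
  rw [Fintype.card_subtype]; decide +kernel

theorem mem_B_iff : ∀ i : Fin 128, inM MB i ↔ i.val < 64 := by decide +kernel
theorem f_sub : ∀ i : Fin 128, inM MF i → inM MB i := by decide +kernel
theorem b_sq : ∀ i : Fin 128, inM MB i → inM MF (mt i i) := by decide +kernel
theorem b_norm : ∀ b f : Fin 128, inM MB b → inM MF f → inM MF (cj b f) := by decide +kernel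
theorem z_f : ∀ i : Fin 128, inM MZ i → inM MF i := by decide +kernel
theorem uz_f : ∀ i j : Fin 128, inM MF i → inM MF j → inM MF (mt i j) := by decide +kernel
theorem cen_z : ∀ i : Fin 128, (∀ j : Fin 128, mt i j = mt j i) → inM MZ i := by decide +kernel
theorem z_cen : ∀ i : Fin 128, inM MZ i → ∀ j : Fin 128, mt i j = mt j i := by decide +kernel
theorem x_faith : ∀ p : Fin 128, (∀ i : Fin 128, inM MX i → cj p i = i) → inM MZ p := by decide +kernel
theorem i_v : ∀ i : Fin 128, mt i i = 0 → (∀ p : Fin 128, mt i (cj p i) = mt (cj p i) i) → inM MV1 i ∨ inM MV2 i := by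
  decide +kernel

section Setup

variable {S : Type*} [Group S] {P : Subgroup S} (c : P ≃* T₀)

/-- The embedding of the table group into `S`. -/
def ell : T₀ →* S := P.subtype.comp c.symm.toMonoidHom

theorem ell_apply (i : T₀) : ell c i = (c.symm i : S) := rfl

theorem ell_injective : Function.Injective (ell c) := by
  intro a b h
  exact c.symm.injective (Subtype.ext h)

theorem ell_mem (i : T₀) : ell c i ∈ P := (c.symm i).2

theorem exists_ell {x : S} (hx : x ∈ P) : ∃ i : Fin 128, ell c (tt i) = x :=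
  ⟨c ⟨x, hx⟩, by simp [ell]⟩

theorem ell_cj (p i : Fin 128) : ell c (tt (cj p i)) = ell c (tt p) * ell c (tt i) * (ell c (tt p))⁻¹ := by
  have : (tt (cj p i)) = (tt p) * (tt i) * (tt p)⁻¹ := rfl
  rw [this, map_mul, map_mul, map_inv]

theorem card_map_ell (A : Subgroup T₀) : Nat.card (A.map (ell c)) = Nat.card A :=
  Subgroup.card_map_of_injective (ell_injective c)

theorem mem_map_ell {A : Subgroup T₀} {i : T₀} : ell c i ∈ A.map (ell c) ↔ i ∈ A := by
  constructor
  · rintro ⟨j, hj, e⟩
    rw [← ell_injective c e]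
    exact hj
  · intro h
    exact ⟨i, h, rfl⟩

/-- The action of the normaliser on the table group. -/
def Phi : Subgroup.normalizer (P : Set S) →* MulAut T₀ where
  toFun n := (c.symm.trans (P.normalizerMonoidHom n)).trans c
  map_one' := by
    ext i
    simp
  map_mul' a b := by
    ext i
    simp

theorem ell_Phi (n : Subgroup.normalizer (P : Set S)) (i : T₀) :
    ell c (Phi c n i) = (n : S) * ell c i * (n : S)⁻¹ := by
  simp [ell, Phi]

/-- The action on codes as a function. -/
def phiF (n : Subgroup.normalizer (P : Set S)) : Fin 128 → Fin 128 := af (Phi c n)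

theorem ell_phiF (n : Subgroup.normalizer (P : Set S)) (i : Fin 128) :
    ell c (tt (phiF c n i)) = (n : S) * ell c (tt i) * (n : S)⁻¹ := ell_Phi c n i

theorem phiF_mul (a b : Subgroup.normalizer (P : Set S)) (i : Fin 128) :
    phiF c (a * b) i = phiF c a (phiF c b i) := by
  have : Phi c (a * b) = Phi c a * Phi c b := map_mul _ _ _
  simp only [phiF, this]
  rfl

theorem le_norm : P ≤ Subgroup.normalizer (P : Set S) := Subgroup.le_normalizer

/-- An element of the table group as an element of the normaliser. -/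
def nell (p : T₀) : Subgroup.normalizer (P : Set S) := ⟨ell c p, le_norm (ell_mem c p)⟩

theorem phiF_nell (p i : Fin 128) : phiF c (nell c (tt p)) i = cj p i := by
  apply ell_injective c
  rw [ell_phiF, ell_cj]
  rfl

end Setup

section Main

variable {S : Type*} [Group S] [Finite S] (h2 : IsPGroup 2 S) (hr : Cfsg.SectionalPRankLE 2 4 S)
  {P : Subgroup S} (c : P ≃* T₀)

include hr in
/-- The central rank five configuration. -/
theorem no_triv (g : S) (hgP : g ∉ P) (htriv : ∀ i : Fin 128, i.val < 64 → ∃ u : Fin 128, inM MF u ∧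
      g * ell c (tt i) * g⁻¹ = ell c (tt i) * ell c (tt u))
    (hsq : ∃ u : Fin 128, inM MF u ∧ g * g = ell c (tt u)) : False := by
  classical
  refine rank5 hr (B₀.map (ell c)) (F₀.map (ell c)) g ?_ ?_ ?_ ?_ ?_ ?_ ?_ ?_
  · rw [card_map_ell, card_B₀]
  · rw [card_map_ell, card_F₀]
  · exact Subgroup.map_mono (fun i hi => f_sub i hi)
  · rintro _ ⟨b, hb, rfl⟩
    rw [← map_mul]
    exact ⟨_, b_sq b hb, rfl⟩
  · rintro _ ⟨b, hb, rfl⟩ _ ⟨f, hf, rfl⟩
    rw [← map_mul, ← map_inv, ← map_mul]
    exact ⟨_, b_norm b f hb hf, rfl⟩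
  · rintro _ ⟨b, hb, rfl⟩
    obtain ⟨u, hu, e⟩ := htriv b ((mem_B_iff b).1 hb)
    exact ⟨_, ⟨u, hu, rfl⟩, e⟩
  · obtain ⟨u, hu, e⟩ := hsq
    rw [e]
    exact ⟨u, hu, rfl⟩
  · rintro ⟨b, _, e⟩
    exact hgP (e ▸ ell_mem c b)

include h2 hr c in
/-- The centraliser of `P` lies in `P`. -/
theorem cent_le (x : S) (hx : x ∈ Subgroup.centralizer (P : Set S)) : x ∈ P := by
  by_contra hxP
  obtain ⟨k, hk, hk2⟩ := exists_pow_sq_mem h2 P x hxP
  set g := x ^ (2 ^ k) with hg
  have hgc : g ∈ Subgroup.centralizer (P : Set S) := Subgroup.pow_mem _ hx _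
  refine no_triv hr c g hk ?_ ?_
  · intro i _
    refine ⟨0, by decide +kernel, ?_⟩
    have h0 : ell c (tt ((0 : Fin 128))) = 1 := map_one (ell c)
    rw [h0, mul_one]
    have := (Subgroup.mem_centralizer_iff.1 hgc) _ (ell_mem c (tt i))
    rw [← this]
    simp
  · obtain ⟨i, hi⟩ := exists_ell c hk2
    refine ⟨i, z_f i (cen_z i ?_), hi.symm⟩
    intro j
    apply ell_injective c
    show ell c ((tt i) * (tt j)) = ell c ((tt j) * (tt i))
    rw [map_mul, map_mul, hi]
    have hgg : g * g ∈ Subgroup.centralizer (P : Set S) := Subgroup.mul_mem _ hgc hgc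
    exact ((Subgroup.mem_centralizer_iff.1 hgg) _ (ell_mem c (tt j))).symm

include h2 hr c in
/-- If an element of the normaliser acts as conjugation by `u`, it is `u` times a central code. -/
theorem inn_code (n : Subgroup.normalizer (P : Set S)) (u : Fin 128) (hp : ∀ i, phiF c n i = cj u i) :
    ∃ z : Fin 128, inM MZ z ∧ (n : S) = ell c (tt u) * ell c (tt z) := by
  have hc : (ell c (tt u))⁻¹ * (n : S) ∈ Subgroup.centralizer (P : Set S) := by
    rw [Subgroup.mem_centralizer_iff]
    intro h hh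
    obtain ⟨i, rfl⟩ := exists_ell c hh
    have e1 := ell_phiF c n i
    rw [hp i, ell_cj] at e1
    have e2 : (n : S) * ell c i = ell c (tt u) * ell c i * (ell c (tt u))⁻¹ * (n : S) := by
      rw [e1]; group
    rw [mul_assoc, e2]
    group
  have hP := cent_le h2 hr c _ hc
  obtain ⟨z, hz⟩ := exists_ell c hP
  refine ⟨z, cen_z z ?_, ?_⟩
  · intro j
    apply ell_injective c
    show ell c ((tt z) * (tt j)) = ell c ((tt j) * (tt z))
    rw [map_mul, map_mul, hz]
    exact ((Subgroup.mem_centralizer_iff.1 hc) _ (ell_mem c (tt j))).symm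
  · rw [show ell c (tt z) = _ from hz]
    group

include h2 hr c in
/-- If the action on `P` of an element of the normaliser is inner then the element lies in `P`. -/
theorem inn_mem (n : Subgroup.normalizer (P : Set S)) (h : isInn (phiF c n)) : (n : S) ∈ P := by
  obtain ⟨p, hp⟩ := h
  obtain ⟨z, _, e⟩ := inn_code h2 hr c n p hp
  rw [e]
  exact P.mul_mem (ell_mem c _) (ell_mem c _)

include h2 hr c in
/-- Elements of the normaliser outside `P` do not induce a "bad" automorphism. -/
theorem not_bad (n : Subgroup.normalizer (P : Set S)) (hn : (n : S) ∉ P) (h : badF (phiF c n)) : False := by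
  obtain ⟨p, h1, u, hu, h3⟩ := h
  set g : Subgroup.normalizer (P : Set S) := n * nell c (tt p) with hg
  have hfg : ∀ i, phiF c g i = phiF c n (cj p i) := by
    intro i
    rw [hg, phiF_mul, phiF_nell]
  have hgP : (g : S) ∉ P := by
    intro h
    apply hn
    have : (n : S) = (g : S) * (ell c (tt p))⁻¹ := by
      rw [hg]
      show (n : S) = (n : S) * ell c (tt p) * (ell c (tt p))⁻¹
      group
    rw [this]
    exact P.mul_mem h (P.inv_mem (ell_mem c _))
  refine no_triv hr c (g : S) hgP ?_ ?_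
  · intro i hi
    refine ⟨mt (iv i) (phiF c n (cj p i)), h1 i hi, ?_⟩
    rw [← ell_phiF, hfg]
    have e : (tt (phiF c n (cj p i))) = (tt i) * (tt (mt (iv i) (phiF c n (cj p i)))) := by
      show (tt (phiF c n (cj p i))) = (tt i) * ((tt i)⁻¹ * (tt (phiF c n (cj p i))))
      group
    rw [← map_mul, ← e]
  · have hsq : ∀ i, phiF c (g * g) i = cj u i := by
      intro i
      rw [phiF_mul, hfg, hfg]
      exact h3 i
    obtain ⟨z, hz, e⟩ := inn_code h2 hr c (g * g) u hsq
    refine ⟨mt u z, uz_f u z hu (z_f z hz), ?_⟩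
    exact e.trans (map_mul (ell c) (tt u) (tt z)).symm

include h2 hr c in
/-- Every element of the normaliser outside `P` induces a "swap" automorphism. -/
theorem swap_of_not_mem (n : Subgroup.normalizer (P : Set S)) (hn : (n : S) ∉ P) : swapF (phiF c n) := by
  have hcl := classify (Phi c n)
  rcases hcl with h | h | h | h
  · exact absurd (inn_mem h2 hr c n h) hn
  · exact h
  · exact (not_bad h2 hr c n hn h).elim
  · obtain ⟨h1, h2'⟩ := h
    exfalso
    have hf : (fun i => phiF c n (phiF c n i)) = phiF c (n * n) := by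
      funext i
      rw [phiF_mul]
    have hnn : ((n * n : Subgroup.normalizer (P : Set S)) : S) ∉ P := by
      intro hmem
      obtain ⟨x, hx⟩ := exists_ell c hmem
      apply h1
      refine ⟨x, fun i => ?_⟩
      show phiF c n (phiF c n i) = _
      rw [← phiF_mul]
      apply ell_injective c
      rw [ell_phiF, ell_cj, ← hx]
    refine not_bad h2 hr c (n * n) hnn ?_
    show badF (phiF c (n * n))
    rw [← hf]
    exact h2'

/-- Conjugation on the set of codes for elements of `P` in the normaliser. -/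
theorem phiF_of_mem (n : Subgroup.normalizer (P : Set S)) (x : T₀) (hx : ell c x = (n : S)) (i : Fin 128) :
    phiF c n i = cj x i := by
  have : n = nell c x := Subtype.ext hx.symm
  rw [this]
  exact phiF_nell c x i

include h2 in
/-- `P` is properly contained in its normaliser. -/
theorem exists_out (hPlt : P ≠ ⊤) : ∃ n : Subgroup.normalizer (P : Set S), (n : S) ∉ P := by
  haveI : Group.IsNilpotent S := h2.isNilpotent
  have hlt : P < Subgroup.normalizer (P : Set S) := Group.normalizerCondition_of_isNilpotent P (lt_top_iff_ne_top.2 hPlt)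
  obtain ⟨x, hx, hxP⟩ := SetLike.exists_of_lt hlt
  exact ⟨⟨x, hx⟩, hxP⟩

include h2 hr c in
/-- The product of two elements of the normaliser outside `P` lies in `P`. -/
theorem mul_mem_of_out (a b : Subgroup.normalizer (P : Set S)) (ha : (a : S) ∉ P) (hb : (b : S) ∉ P) :
    ((a * b : Subgroup.normalizer (P : Set S)) : S) ∈ P := by
  by_contra h
  obtain ⟨_, _, ⟨i, hi, hi2⟩, _⟩ := swap_of_not_mem h2 hr c (a * b) h
  apply hi2
  rw [phiF_mul]
  exact (swap_of_not_mem h2 hr c a ha).2.1 _ ((swap_of_not_mem h2 hr c b hb).1 i hi)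

include h2 hr c in
/-- `P` has index two in its normaliser. -/
theorem relIndex_eq (hPlt : P ≠ ⊤) : P.relIndex (Subgroup.normalizer (P : Set S)) = 2 := by
  obtain ⟨n₀, hn₀⟩ := exists_out h2 hPlt
  rw [Subgroup.relIndex, Subgroup.index_eq_two_iff]
  refine ⟨n₀, fun b => ?_⟩
  by_cases hb : (b : S) ∈ P
  · have hb' : b ∈ P.subgroupOf (Subgroup.normalizer (P : Set S)) := Subgroup.mem_subgroupOf.2 hb
    have h1 : b * n₀ ∉ P.subgroupOf (Subgroup.normalizer (P : Set S)) := by
      intro h
      apply hn₀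
      have h3 := Subgroup.mem_subgroupOf.1 h
      have : (n₀ : S) = (b : S)⁻¹ * ((b * n₀ : Subgroup.normalizer (P : Set S)) : S) := by
        simp
      rw [this]
      exact P.mul_mem (P.inv_mem hb) h3
    exact Or.inr ⟨hb', h1⟩
  · have hb' : b ∉ P.subgroupOf (Subgroup.normalizer (P : Set S)) := fun h => hb (Subgroup.mem_subgroupOf.1 h)
    exact Or.inl ⟨Subgroup.mem_subgroupOf.2 (mul_mem_of_out h2 hr c b n₀ hb hn₀), hb'⟩

include c in
theorem card_P : Nat.card P = 128 := by
  rw [Nat.card_congr c.toEquiv, card_T₀]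

include h2 hr c in
theorem card_norm (hPlt : P ≠ ⊤) : Nat.card (Subgroup.normalizer (P : Set S)) = 256 := by
  have h1 := Subgroup.card_mul_index (P.subgroupOf (Subgroup.normalizer (P : Set S)))
  have h3 : (P.subgroupOf (Subgroup.normalizer (P : Set S))).index = 2 := relIndex_eq h2 hr c hPlt
  have h4 : Nat.card (P.subgroupOf (Subgroup.normalizer (P : Set S))) = 128 := by
    rw [← card_P c]
    exact Nat.card_congr (Subgroup.subgroupOfEquivOfLe Subgroup.le_normalizer).toEquiv
  rw [h3, h4] at h1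
  omega

/-- Centre of `P` in terms of the table group. -/
theorem map_center : (Subgroup.center P).map P.subtype = Z₀.map (ell c) := by
  ext x
  constructor
  · rintro ⟨y, hy, rfl⟩
    refine ⟨c y, ?_, by simp [ell]⟩
    apply cen_z
    intro j
    have h1 := congrArg c (Subgroup.mem_center_iff.1 hy (c.symm (tt j)))
    rw [map_mul, map_mul, MulEquiv.apply_symm_apply] at h1
    exact h1.symm
  · rintro ⟨i, hi, rfl⟩
    refine ⟨c.symm i, Subgroup.mem_center_iff.2 (fun y => ?_), rfl⟩
    apply c.injective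
    rw [map_mul, map_mul, MulEquiv.apply_symm_apply]
    exact (z_cen i hi (c y)).symm

include h2 hr c in
/-- The centre of `S`. -/
theorem center_eq : Subgroup.center S = Z₀.map (ell c) := by
  classical
  have hle : Subgroup.center S ≤ Z₀.map (ell c) := by
    intro x hx
    have hxc : x ∈ Subgroup.centralizer (P : Set S) :=
      Subgroup.mem_centralizer_iff.2 (fun h _ => (Subgroup.mem_center_iff.1 hx h))
    obtain ⟨i, rfl⟩ := exists_ell c (cent_le h2 hr c x hxc)
    refine ⟨i, cen_z i ?_, rfl⟩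
    intro j
    apply ell_injective c
    show ell c ((tt i) * (tt j)) = ell c ((tt j) * (tt i))
    rw [map_mul, map_mul]
    exact (Subgroup.mem_center_iff.1 hx _).symm
  have hcZ : Nat.card (Z₀.map (ell c)) = 2 := by rw [card_map_ell, card_Z₀]
  haveI hnt : Nontrivial S := by
    have h128 : 128 ≤ Nat.card S := by
      have := Subgroup.card_le_card_group P
      rwa [card_P c] at this
    apply Finite.one_lt_card_iff_nontrivial.1
    omega
  haveI := h2.center_nontrivial
  have hc1 : 1 < Nat.card (Subgroup.center S) := Finite.one_lt_card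
  have hd := Subgroup.card_dvd_of_le hle
  rw [hcZ] at hd
  have hc2 : Nat.card (Subgroup.center S) ≤ 2 := Nat.le_of_dvd (by norm_num) hd
  exact Subgroup.eq_of_le_of_card_ge hle (by omega)

/-- Growth of normalisers in a 2-group between two subgroups. -/
theorem exists_norm_out (h2 : IsPGroup 2 S) (P K : Subgroup S) (hPK : P ≤ K) (hne : ∃ x ∈ K, x ∉ P) :
    ∃ g ∈ K, g ∉ P ∧ g ∈ Subgroup.normalizer (P : Set S) := by
  have hK : IsPGroup 2 K := h2.to_subgroup K
  haveI : Group.IsNilpotent K := hK.isNilpotent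
  have hlt : P.subgroupOf K < ⊤ := by
    rw [lt_top_iff_ne_top]
    intro h
    obtain ⟨x, hx, hxP⟩ := hne
    apply hxP
    have : (⟨x, hx⟩ : K) ∈ P.subgroupOf K := by rw [h]; trivial
    exact Subgroup.mem_subgroupOf.1 this
  have hlt2 := Group.normalizerCondition_of_isNilpotent _ hlt
  obtain ⟨g, hg, hgP⟩ := SetLike.exists_of_lt hlt2
  refine ⟨g, g.2, fun h => hgP (Subgroup.mem_subgroupOf.2 h), ?_⟩
  rw [Subgroup.mem_normalizer_iff]
  intro h
  have hnorm := Subgroup.mem_normalizer_iff.1 hg
  constructor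
  · intro hh
    have := (hnorm ⟨h, hPK hh⟩).1 (Subgroup.mem_subgroupOf.2 hh)
    exact Subgroup.mem_subgroupOf.1 this
  · intro hh
    have hy : (g : S) * h * (g : S)⁻¹ ∈ K := hPK hh
    have hhK : h ∈ K := by
      have : h = (g : S)⁻¹ * ((g : S) * h * (g : S)⁻¹) * (g : S) := by group
      rw [this]
      exact K.mul_mem (K.mul_mem (K.inv_mem g.2) hy) g.2
    have := (hnorm ⟨h, hhK⟩).2 (Subgroup.mem_subgroupOf.2 hh)
    exact Subgroup.mem_subgroupOf.1 this

include h2 hr c in
/-- The normal `E₁₆` subgroups of `P` have normaliser `P`. -/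
theorem norm_V (V : Subgroup S) (hVP : V ≤ P) (hVn : ∀ g ∈ P, ∀ v ∈ V, g * v * g⁻¹ ∈ V)
    (hV : Cfsg.IsElementaryAbelian 2 V) (hcV : Nat.card V = 16) : Subgroup.normalizer (V : Set S) = P := by
  classical
  obtain ⟨hVc, hVe⟩ := hV
  have hcomm : ∀ a ∈ V, ∀ b ∈ V, a * b = b * a := by
    intro a ha b hb
    have := hVc.is_comm.comm (⟨a, ha⟩ : V) ⟨b, hb⟩
    exact congrArg Subtype.val this
  have hall : ∀ v ∈ V, v ∈ V1₀.map (ell c) ∨ v ∈ V2₀.map (ell c) := by
    intro v hv
    obtain ⟨i, rfl⟩ := exists_ell c (hVP hv)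
    have h1 : mt i i = 0 := by
      apply ell_injective c
      show ell c ((tt i) * (tt i)) = ell c 1
      rw [map_mul, map_one, ← pow_two]
      exact hVe _ hv
    have h3 : ∀ p : Fin 128, mt i (cj p i) = mt (cj p i) i := by
      intro p
      apply ell_injective c
      show ell c ((tt i) * (tt (cj p i))) = ell c ((tt (cj p i)) * (tt i))
      rw [map_mul, map_mul]
      apply hcomm _ hv
      rw [ell_cj]
      exact hVn _ (ell_mem c _) _ hv
    rcases i_v i h1 h3 with h | h
    · exact Or.inl ⟨i, h, rfl⟩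
    · exact Or.inr ⟨i, h, rfl⟩
  have hor : V ≤ V1₀.map (ell c) ∨ V ≤ V2₀.map (ell c) := by
    by_contra hcon
    push Not at hcon
    obtain ⟨h1, h3⟩ := hcon
    obtain ⟨a, ha, ha1⟩ := SetLike.not_le_iff_exists.1 h1
    obtain ⟨b, hb, hb2⟩ := SetLike.not_le_iff_exists.1 h3
    have ha2 := (hall a ha).resolve_left ha1
    have hb1 := (hall b hb).resolve_right hb2
    rcases hall (a * b) (V.mul_mem ha hb) with h | h
    · apply ha1
      have : a = a * b * b⁻¹ := by group
      rw [this]
      exact Subgroup.mul_mem _ h (Subgroup.inv_mem _ hb1)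
    · apply hb2
      have : b = a⁻¹ * (a * b) := by group
      rw [this]
      exact Subgroup.mul_mem _ (Subgroup.inv_mem _ ha2) h
  apply le_antisymm
  · intro x hx
    by_contra hxP
    have hPK : P ≤ Subgroup.normalizer (V : Set S) := by
      intro y hy
      rw [Subgroup.mem_normalizer_iff]
      intro h
      constructor
      · exact hVn y hy h
      · intro hh
        have := hVn y⁻¹ (P.inv_mem hy) _ hh
        simpa [mul_assoc] using this
    obtain ⟨g, hg, hgP, hgN⟩ := exists_norm_out h2 P _ hPK ⟨x, hx, hxP⟩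
    have hsw := swap_of_not_mem h2 hr c ⟨g, hgN⟩ hgP
    obtain ⟨-, -, ⟨i, hi, hi2⟩, ⟨j, hj, hj2⟩, -, -⟩ := hsw
    rcases hor with h | h
    · have hVeq : V = V1₀.map (ell c) := Subgroup.eq_of_le_of_card_ge h (by rw [card_map_ell, card_V1₀, hcV])
      apply hi2
      have h4 : ell c (tt i) ∈ V := by
        rw [hVeq]; exact ⟨i, hi, rfl⟩
      have h5 := (Subgroup.mem_normalizer_iff.1 hg _).1 h4
      rw [← ell_phiF c ⟨g, hgN⟩ i, hVeq] at h5
      exact (mem_map_ell c).1 h5
    · have hVeq : V = V2₀.map (ell c) := Subgroup.eq_of_le_of_card_ge h (by rw [card_map_ell, card_V2₀, hcV])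
      apply hj2
      have h4 : ell c (tt j) ∈ V := by
        rw [hVeq]; exact ⟨j, hj, rfl⟩
      have h5 := (Subgroup.mem_normalizer_iff.1 hg _).1 h4
      rw [← ell_phiF c ⟨g, hgN⟩ j, hVeq] at h5
      exact (mem_map_ell c).1 h5
  · intro y hy
    rw [Subgroup.mem_normalizer_iff]
    intro h
    constructor
    · exact hVn y hy h
    · intro hh
      have := hVn y⁻¹ (P.inv_mem hy) _ hh
      simpa [mul_assoc] using this

theorem phiF_one (i : Fin 128) : phiF c (1 : Subgroup.normalizer (P : Set S)) i = i := by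
  apply ell_injective c
  rw [ell_phiF]
  simp

include h2 hr c in
/-- The quotient of the normaliser by the centre is a Sylow 2-subgroup of `S₈`. -/
theorem quot_iso (hPlt : P ≠ ⊤) :
    ∃ (_ : ((Subgroup.center S).subgroupOf (Subgroup.normalizer (P : Set S))).Normal)
      (T : Sylow 2 (Equiv.Perm (Fin 8))),
      Nonempty (↥(Subgroup.normalizer (P : Set S)) ⧸ (Subgroup.center S).subgroupOf (Subgroup.normalizer (P : Set S)) ≃*
        ↥(T : Subgroup (Equiv.Perm (Fin 8)))) := by
  classical
  have hinv : ∀ (n : Subgroup.normalizer (P : Set S)) (i : Fin 128), inM MX i → inM MX (phiF c n i) := by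
    intro n i hi
    by_cases hn : (n : S) ∈ P
    · obtain ⟨x, hx⟩ := exists_ell c hn
      rw [phiF_of_mem c n x hx]
      exact x_inv x i hi
    · exact (swap_of_not_mem h2 hr c n hn).2.2.2.2.1 i hi
  have hiff : ∀ (n : Subgroup.normalizer (P : Set S)) (i : Fin 128), inM MX (phiF c n i) ↔ inM MX i := by
    intro n i
    refine ⟨fun h => ?_, hinv n i⟩
    have := hinv n⁻¹ _ h
    rwa [← phiF_mul, inv_mul_cancel, phiF_one] at this
  let ρ : Subgroup.normalizer (P : Set S) →* Equiv.Perm {i : Fin 128 // inM MX i} :=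
    MonoidHom.mk' (fun n => Equiv.Perm.subtypePerm (Phi c n).toEquiv (hiff n)) (by
      intro a b
      ext x
      exact congrArg Fin.val (phiF_mul c a b x.1))
  have hρ : ∀ n (x : {i : Fin 128 // inM MX i}), ((ρ n x : {i : Fin 128 // inM MX i}) : Fin 128) = phiF c n x.1 := fun _ _ => rfl
  let e : {i : Fin 128 // inM MX i} ≃ Fin 8 := Fintype.equivFinOfCardEq card_X
  let ρ' : Subgroup.normalizer (P : Set S) →* Equiv.Perm (Fin 8) := e.permCongrHom.toMonoidHom.comp ρ
  have hker : ρ'.ker = (Subgroup.center S).subgroupOf (Subgroup.normalizer (P : Set S)) := by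
    ext n
    rw [Subgroup.mem_subgroupOf, MonoidHom.mem_ker, center_eq h2 hr c]
    constructor
    · intro hn
      have hρ1 : ρ n = 1 := by
        apply e.permCongrHom.injective
        rw [map_one]
        exact hn
      have hfix : ∀ i : Fin 128, inM MX i → phiF c n i = i := by
        intro i hi
        have := hρ n ⟨i, hi⟩
        rw [hρ1] at this
        exact this.symm
      by_cases hnP : (n : S) ∈ P
      · obtain ⟨x, hx⟩ := exists_ell c hnP
        refine ⟨x, x_faith x ?_, hx⟩
        intro i hi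
        rw [← phiF_of_mem c n x hx]
        exact hfix i hi
      · exfalso
        obtain ⟨i, hi, hi2⟩ := (swap_of_not_mem h2 hr c n hnP).2.2.2.2.2
        exact hi2 (hfix i hi)
    · intro hn
      have hn' : (n : S) ∈ Subgroup.center S := by rw [center_eq h2 hr c]; exact hn
      have hρ1 : ρ n = 1 := by
        ext x
        rw [hρ]
        congr 1
        apply ell_injective c
        rw [ell_phiF]
        rw [(Subgroup.mem_center_iff.1 hn' _).symm]
        simp
      show e.permCongrHom (ρ n) = 1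
      rw [hρ1, map_one]
  have hcZ : Nat.card ((Subgroup.center S).subgroupOf (Subgroup.normalizer (P : Set S))) = 2 := by
    have hle : Subgroup.center S ≤ Subgroup.normalizer (P : Set S) := by
      rw [center_eq h2 hr c]
      rintro _ ⟨i, _, rfl⟩
      exact Subgroup.le_normalizer (ell_mem c i)
    rw [Nat.card_congr (Subgroup.subgroupOfEquivOfLe hle).toEquiv, center_eq h2 hr c, card_map_ell, card_Z₀]
  have hq : Nat.card (↥(Subgroup.normalizer (P : Set S)) ⧸ ρ'.ker) = 128 := by
    have h3 := Subgroup.card_eq_card_quotient_mul_card_subgroup ρ'.ker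
    rw [card_norm h2 hr c hPlt, hker, hcZ] at h3
    rw [hker]
    omega
  have hcR : Nat.card ρ'.range = 2 ^ (Nat.card (Equiv.Perm (Fin 8))).factorization 2 := by
    rw [factor_eq, ← Nat.card_congr (QuotientGroup.quotientKerEquivRange ρ').toEquiv, hq]
    norm_num
  refine ⟨inferInstance, Sylow.ofCard ρ'.range hcR, ⟨?_⟩⟩
  rw [Sylow.coe_ofCard]
  exact (QuotientGroup.quotientMulEquivOfEq hker.symm).trans (QuotientGroup.quotientKerEquivRange ρ')

end Main

/-- The full theorem. -/
theorem main {S : Type*} [Group S] [Finite S] (h2 : IsPGroup 2 S) (hr : Cfsg.SectionalPRankLE 2 4 S)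
    (P : Subgroup S) (hPlt : P ≠ ⊤) (hP : ∃ T : Sylow 2 (Equiv.Perm (Fin 8)), Nonempty (↥P ≃* ↥(T : Subgroup (Equiv.Perm (Fin 8))))) :
    Subgroup.center S = (Subgroup.center ↥P).map P.subtype ∧ Nat.card ↥(Subgroup.center S) = 2 ∧
    P.relIndex (Subgroup.normalizer (P : Set S)) = 2 ∧
    (∃ (_ : ((Subgroup.center S).subgroupOf (Subgroup.normalizer (P : Set S))).Normal) (T : Sylow 2 (Equiv.Perm (Fin 8))),
      Nonempty (↥(Subgroup.normalizer (P : Set S)) ⧸ (Subgroup.center S).subgroupOf (Subgroup.normalizer (P : Set S)) ≃*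
        ↥(T : Subgroup (Equiv.Perm (Fin 8))))) ∧
    ∀ V : Subgroup S, V ≤ P → (∀ g ∈ P, ∀ v ∈ V, g * v * g⁻¹ ∈ V) → Cfsg.IsElementaryAbelian 2 V → Nat.card ↥V = 16 →
      Subgroup.normalizer (V : Set S) = P := by
  obtain ⟨T, ⟨e⟩⟩ := hP
  obtain ⟨e'⟩ := sylow_equiv T
  let c : P ≃* T₀ := e.trans e'
  refine ⟨?_, ?_, relIndex_eq h2 hr c hPlt, quot_iso h2 hr c hPlt, ?_⟩
  · rw [center_eq h2 hr c, map_center]
  · rw [center_eq h2 hr c, card_map_ell, card_Z₀]
  · intro V hVP hVn hV hc
    exact norm_V h2 hr c V hVP hVn hV hc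

end Cfsg.Agent.Lib.WrD8
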